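import Cfsg.Agent.Cor.E6D
import Cfsg.Agent.Chev.FoldE6
import Cfsg.Agent.Tw.InvTE6
import Cfsg.Agent.TwM.E6c
import Cfsg.Agent.Forms.LieBound2
import Cfsg.Agent.Mult.Assemble

set_option autoImplicit false

/-! The multiplier of `²E₆(2)`. -/

namespace Cfsg.Agent.Cor

open Cfsg.Agent.CGT Cfsg.Agent.Mult Subgroup Cfsg.Lie Cfsg.Agent.Tw Equiv
open Cfsg.Agent.Chev (Sys certE6 ent entU rowRE6 actN reflE6 Rt Nd)

/-- the word of `x_c(ω ^ e)` -/
def lets (c e : ℕ) : List ℕ :=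
  if e % 3 = 0 then [2 * (c - 36)] else if e % 3 = 1 then [2 * (c - 36) + 1] else [2 * (c - 36), 2 * (c - 36) + 1]

/-- the map sends `x_r(t)` to `x_(w r)(ω ^ (c r) t)` -/
abbrev ActP (M : Mp) (w c : ℕ → ℕ) : Prop :=
  ∀ k < 72, M.lb k = true → 36 ≤ w (36 + k / 2) ∧ M.cj k = lets (w (36 + k / 2)) (c (36 + k / 2) + k % 2)

theorem e6_rel : ∀ j < 72, ∀ i < j, e6D.Vb j j = [] ∧ if ent (rowRE6 (36 + i / 2)) (36 + j / 2) = 0 then e6D.Vb i j = [i, j] else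
    36 ≤ entU (rowRE6 (36 + i / 2)) (36 + j / 2) ∧
      e6D.Vb i j = i :: j :: lets (entU (rowRE6 (36 + i / 2)) (36 + j / 2)) (i % 2 + j % 2) := by decide +kernel

variable {F : Type*} [Field F] {G : Type*} [Group G] (S : Sys certE6 F G) (ω : F)

/-- the letters -/
noncomputable def yE (k : ℕ) : G := xi S (36 + k / 2) (ω ^ (k % 2))

variable {S ω} [CharP F 2]

theorem om3 (h : ω ^ 2 = 1 + ω) : ω ^ 3 = 1 := by
  linear_combination (ω + 1) * h + CharTwo.add_self_eq_zero ω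

theorem ev_lets (h : ω ^ 2 = 1 + ω) {c : ℕ} (hc : 36 ≤ c) (e : ℕ) : ev (yE S ω) (lets c e) = xi S c (ω ^ e) := by
  obtain ⟨c, rfl⟩ := Nat.exists_eq_add_of_le hc
  rw [pow_eq_pow_mod e (om3 h), lets]
  split_ifs with h1 h2
  · simp [h1, yE]
  · simp [h2, yE, Nat.mul_add_div]
  · simp [show e % 3 = 2 by omega, yE, Nat.mul_add_div, xi_add, h]

theorem relE (h : ω ^ 2 = 1 + ω) : Rel e6D.Vb (fun _ => True) e6D.N (yE S ω) := fun i j _ _ h1 (h2 : j < 72) => by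
  obtain rfl | h1 := h1.eq_or_lt
  · rw [show e6D.Vb i i = [] from (Nat.eq_zero_or_pos i).elim (by rintro rfl; decide +kernel) fun e => (e6_rel i h2 0 e).1,
      yE, xi_add, CharTwo.add_self_eq_zero, xi_zero, ev_nil]
  have := (e6_rel j h2 i h1).2
  rw [yE, yE, Chev.Fold.swapE6 S (by omega) (by omega) (by omega)]
  split_ifs at this ⊢
  · simp [this, yE]
  · simp [this.2, yE, ev_lets h this.1, pow_add]

theorem acts_of (h : ω ^ 2 = 1 + ω) {M : Mp} {w c : ℕ → ℕ} (e : ActP M w c) {g : G}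
    (hg : ∀ (r : Rt chevE6) t, g * S.x r t * g⁻¹ = xi S (w r) (ω ^ c r * t)) : e6D.Acts M (yE S ω) g :=
  fun k (hk : k < 72) hl => by
    rw [(e k hk hl).2, ev_lets h (e k hk hl).1, yE, xi_eq S (show _ < 72 by omega), hg, pow_add]

theorem U_le_Sg (h : ω ^ 2 = 1 + ω) (h2 : ∀ t : F, t = 0 ∨ ∃ e, t = ω ^ e) {A : Set (Rt chevE6)} {L : ℕ → Prop}
    (hA : ∀ r ∈ A, 36 ≤ (r : ℕ) ∧ L (2 * (r - 36)) ∧ L (2 * (r - 36) + 1)) : S.U A ≤ Sg (yE S ω) L 0 e6D.N :=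
  S.U_le.2 fun r hr t => by
    obtain rfl | ⟨e, rfl⟩ := h2 t
    · rw [S.x_zero]; exact one_mem _
    have h3 : (r : ℕ) < 72 := r.2
    rw [← xi_val, ← ev_lets h (hA r hr).1]
    refine ev_mem' fun k hk => ⟨k.zero_le, ?_⟩
    change k < 72 ∧ _
    rw [lets] at hk
    split_ifs at hk <;> simp only [List.mem_cons, List.not_mem_nil, or_false] at hk <;> rcases hk with rfl | rfl <;>
      simp only [hA r hr, and_true] <;> omega

theorem Sg_eq_Up (h : ω ^ 2 = 1 + ω) (h2 : ∀ t : F, t = 0 ∨ ∃ e, t = ω ^ e) :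
    Sg (yE S ω) (fun _ => True) 0 e6D.N = S.Up :=
  le_antisymm (Sg_le fun j _ _ _ => xi_mem S (fun h => (certE6.pos_iff_val ⟨_, h⟩).2 (show 72 ≤ 2 * (36 + j / 2) by omega)) _)
    (U_le_Sg h h2 fun r hr => ⟨by have : 72 ≤ _ := (certE6.pos_iff_val _).1 hr; omega, trivial, trivial⟩)

theorem e6_fix : ∀ k < 36, (∀ a ∈ e6D.gens k, a < 72 ∧ 36 ≤ tabTE6.ρ (36 + a / 2)) ∧
    eqW e6D.Vb 0 e6D.N 1000 (sub (fun a => lets (tabTE6.ρ (36 + a / 2)) (2 * (a % 2))) (e6D.gens k)) (e6D.gens k) = true := by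
  decide +kernel

theorem e6_n : ∀ i : Nd chevE6, let k := [0, 1, 2, 3, 2, 0].getD i 0; let l := [[0, 5], [1], [2, 4], [3]].getD k []
    k < 4 ∧ l ∈ tabTE6.ow ∧ tabTE6.okL chevE6 ([33, 2, 20, 8].getD k 0) l = true ∧
      (∀ j, symE6.nodes.SameCycle i j ↔ ([33, 2, 20, 8].getD k 0).testBit j = true) ∧ ActP (e6M k) (actN reflE6 l) (fun _ => 0) ∧
      ∀ r : Rt chevE6, 72 ≤ 2 * (r : ℕ) → (r : ℕ) ∉ [[36, 56], [46], [37, 42], [39], [37, 42], [36, 56]].getD i [] →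
        36 ≤ (r : ℕ) ∧ (e6M k).lb (2 * (r - 36)) = true ∧ (e6M k).lb (2 * (r - 36) + 1) = true := by
  decide +kernel

/-- exponents of the torus -/
noncomputable abbrev exH (a b : ℕ) (r : ℕ) : ℤ :=
  ∑ i : Nd chevE6, ([a, 0, b, 0, b * 2, a * 2].getD i 0 : ℕ) * Chev.fpair 6 Chev.coE6 Chev.caE6 (certE6.sp i) r

theorem e6_t : ∀ a < 3, ∀ b < 3, ActP (e6H ((a + b) % 3)) id fun r => (exH a b r % 3).toNat := by
  decide +kernel

theorem exists_om [Finite F] (hF : Nat.card F = 2 ^ 2) :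
    ∃ ω : Fˣ, (ω : F) ^ 2 = 1 + ω ∧ ∀ t : Fˣ, ∃ e < 3, t = ω ^ e := by
  obtain ⟨ω, h⟩ := IsCyclic.exists_monoid_generator (α := Fˣ)
  have h1 : orderOf ω = 3 := by
    rw [orderOf_eq_card_of_forall_mem_powers h, Nat.card_units, hF]; rfl
  have h2 : (ω : F) ^ 3 = 1 := by rw [← Units.val_pow_eq_pow_val, ← h1, pow_orderOf_eq_one, Units.val_one]
  have h3 : (ω : F) - 1 ≠ 0 := fun e => by simp [show ω = 1 from Units.ext (sub_eq_zero.1 e)] at h1
  refine ⟨ω, mul_left_cancel₀ h3 (by linear_combination h2 + (1 - ω ^ 2) * CharTwo.add_self_eq_zero (1 : F)), fun t => ?_⟩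
  obtain ⟨e, rfl⟩ := h t
  exact ⟨e % 3, Nat.mod_lt _ three_pos, by rw [← h1, pow_mod_orderOf]⟩

theorem two_part [Finite F] {φ : F ≃+* F} {K : Subgroup (chevE6.group F)} (hφ : ∀ t, φ t = t ^ 2) (hF : Nat.card F = 2 ^ 2)
    (hK : (stbE6 φ).Good K) (hgen : K ≤ ((certE6.sys F).Up ⊓ K) ⊔ ((certE6.sys F).Um ⊓ K)) :
    (∃ (Z : Type) (_ : CommGroup Z), Mult.Stem K Z ∧ Nat.card Z = 4 ∧ ∀ z : Z, z * z = 1) ∧ PBound K 2 2 ∧
      commutator K = ⊤ := by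
  obtain ⟨ω, h, h1⟩ := exists_om hF
  have h2 : ∀ t : F, t = 0 ∨ ∃ e, t = ω ^ e := fun t => or_iff_not_imp_left.2 fun e => by
    obtain ⟨a, -, ha⟩ := h1 (Units.mk0 t e)
    exact ⟨a, congrArg Units.val ha⟩
  have h3 := frob2 hφ hF
  have hi := certE6.sys_φ_inj F
  have hf := fitTE6 hK h3 (exists_ne_frob (d := 0) hφ hF)
  have hU := Sg_eq_Up (S := certE6.sys F) h h2
  have hb := Dat.base_of e6_base (relE h) (by rw [hU, Sys.card_Up, hF, ← pow_mul]; exact le_rfl)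
  have hc : Nat.card ↥((certE6.sys F).Up ⊓ K) = 2 ^ e6D.n := by
    rw [← Stb.Uw_w0, cardUw_E6 hK hφ hF (certE6.w0_mem_W _) (stbE6 φ).stable_univ.cj_w0, Forms.ln_w0_univ]; rfl
  have hx : ∀ k < e6D.n, e6D.x (yE (certE6.sys F) (ω : F)) k ∈ K := fun k hk => by
    obtain ⟨e1, e2⟩ := e6_fix k hk
    refine hK.up _ (hU ▸ ev_mem' fun r hr => ⟨r.zero_le, (e1 r hr).1, trivial⟩) ?_
    have := eqW_sound (a := 0) (by simpa using hb.rb) e2
    rw [ev_sub] at this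
    refine ((map_ev _ (stbE6 φ).σ.toMonoidHom _).trans (ev_congr fun a ha => ?_)).trans this
    have e3 : 36 + a / 2 < 72 := by have := (e1 a ha).1; omega
    rw [ev_lets h (e1 a ha).2, yE, xi_eq _ (r := 36 + a / 2) e3, MulEquiv.coe_toMonoidHom, Stb.σ_x, hf.e, ← xi_val, hf.ρ,
      pow_mul', ← hφ, Units.val_one, one_mul]
    rfl
  have hB : (stbE6 φ).BN K := ⟨hK, fun i => by
    obtain ⟨x, e1, e2, e3⟩ := TwM.exE hK hφ hF i
    exact ⟨x, ⟨e2, e1⟩, e3⟩⟩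
  have hn : ∀ i : Nd chevE6, ∃ g ∈ K, (certE6.sys F).Over g (certE6.w0 ((stbE6 φ).orb i)) ∧
      e6D.Acts (e6M ([0, 1, 2, 3, 2, 0].getD i 0)) (yE (certE6.sys F) (ω : F)) g := fun i => by
    obtain ⟨-, e1, e2, e3, e4, -⟩ := e6_n i
    obtain ⟨e5, e6⟩ := hf.w0 e2 (J := (stbE6 φ).orb i) e3
    exact ⟨_, hf.ow _ e1, e6 ▸ (pure_nW _).1, acts_of h e4 fun r t => by
      rw [(pure_nW _).2, ← xi_val, hf.act e5, pow_zero, one_mul]; rfl⟩
  have hg : ∀ k, ∃ g ∈ K, e6D.Acts (e6M k) (yE (certE6.sys F) (ω : F)) g := fun k => by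
    by_cases e : k < 4
    · refine (hn ⟨k, e.trans (by decide)⟩).imp fun g e => ⟨e.1, ?_⟩
      interval_cases k <;> exact e.2.2
    · obtain ⟨k, rfl⟩ := Nat.exists_eq_add_of_le' (not_lt.1 e)
      exact ⟨1, one_mem _, fun a _ _ => by simp [e6M, nth_eq]⟩
  refine ⟨hb.stem e6_step (fun k e1 e2 => ⟨_, by simpa [e1.not_gt] using allLt_iff.1 e6_z k e2⟩) hi hB hU hx hc
    (fun a e1 e2 => Submonoid.subset_closure ⟨e1, e2, ?_⟩) fun i => ?_, hb.pbound hi hB hU hx hc rfl rfl hg e6_rules e6_up,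
    hb.perfect hK hU hx hc hgen hg e6_r⟩
  · obtain ⟨t, ht, rfl⟩ := Stb.exists_hh_fix hi eE6 (d := 2)
      (fun t => funext fun i => Units.ext (by fin_cases i <;> exact h3 _)) (by decide +kernel) e2 (hK.fix _ e1)
    have a := fun i => (hφ _).symm.trans (congrArg Units.val ((Stb.st_apply (T := stbE6 φ) t i).symm.trans (congrFun ht _)))
    obtain ⟨i, hi, e3⟩ := h1 (t (TwM.nE 0))
    obtain ⟨j, hj, e4⟩ := h1 (t (TwM.nE 2))
    have e5 : ∀ n : Nd chevE6, t n = ω ^ [i, 0, j, 0, j * 2, i * 2].getD n 0 := fun n => by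
      have b : ∀ c : Fˣ, (c : F) ^ 2 = c → c = 1 := fun c e => Units.ext (mul_left_cancel₀ c.ne_zero (by rw [← pow_two, e]; simp))
      fin_cases n
      exacts [e3, (b _ (a (TwM.nE 1))).trans (pow_zero _).symm, e4, (b _ (a (TwM.nE 3))).trans (pow_zero _).symm,
        Units.ext ((a (TwM.nE 2)).symm.trans (by simp [e4, pow_mul])), Units.ext ((a (TwM.nE 0)).symm.trans (by simp [e3, pow_mul]))]
    refine ⟨_, allLt_iff.1 e6_h _ (Nat.mod_lt (i + j) three_pos), acts_of h (e6_t i hi j hj) fun r u => ?_, fun k => ?_⟩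
    · rw [Sys.H_conj_x e2, Sys.chi_hh, id, xi_val, ← Units.val_pow_eq_pow_val, ← zpow_natCast,
        Int.toNat_of_nonneg (Int.emod_nonneg _ three_ne_zero), ← zpow_eq_zpow_emod _ (n := 3) (Units.ext (om3 h))]
      simp only [e5, TwM.aE_eq, ← zpow_natCast, ← zpow_mul]
      congr 3
      exact (map_prod (zpowersHom _ ω) (fun _ => Multiplicative.ofAdd _) _).symm
    · have := Nat.mod_lt (i + j) three_pos
      generalize (i + j) % 3 = m at this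
      interval_cases m <;> rfl
  · obtain ⟨g, e1, e2, e3⟩ := hn i
    obtain ⟨e4, -, -, -, -, e5⟩ := e6_n i
    exact ⟨g, e1, e2, _, allLt_iff.1 e6_m _ e4, e3, U_le_Sg h h2 fun r hr => e5 r ((certE6.pos_iff_val _).1 hr.1)
      fun e => hr.2 ((orbE6 (φ := φ) i).ge e).2⟩

theorem odd_part [Finite F] {φ : F ≃+* F} {K : Subgroup (chevE6.group F)} (hφ : ∀ t, φ t = t ^ 2) (hF : Nat.card F = 2 ^ 2)
    (hK : (stbE6 φ).Good K) (hgen : K ≤ ((certE6.sys F).Up ⊓ K) ⊔ ((certE6.sys F).Um ⊓ K)) {Γ : Type*} [Group Γ] [Finite Γ]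
    {σ : Γ →* K} (hσ : IsStemExtension σ) : ∃ a, Nat.card σ.ker ∣ 2 ^ a * 3 := by
  obtain ⟨h, e⟩ := TwM.stem_of hσ
  rw [← e]
  generalize K.subtype.comp σ = θ at h
  obtain ⟨P⟩ : Nonempty (Sylow 2 θ.ker) := inferInstance
  obtain ⟨a, ha⟩ := P.isPGroup'.exists_card_eq
  have hM := map_subtype_le (P : Subgroup θ.ker)
  have := Cover.normal_of_le_center (hM.trans h.cen)
  have h1 : Nat.card θ.ker = _ * Nat.card (QuotientGroup.lift _ θ hM).ker :=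
    (QuotientGroup.card_preimage_mk _ (SetLike.coe (QuotientGroup.lift _ θ hM).ker) :)
  rw [card_map_of_injective θ.ker.subtype_injective] at h1
  have h2 : (Nat.card (QuotientGroup.lift _ θ hM).ker).Coprime 2 := by
    rw [← (P : Subgroup θ.ker).card_mul_index] at h1
    exact (Nat.prime_two.coprime_iff_not_dvd.2 (Nat.eq_of_mul_eq_mul_left Nat.card_pos h1 ▸ P.not_dvd_index)).symm
  refine ⟨a, h1 ▸ ha ▸ Nat.mul_dvd_mul_left _ (TwM.kerE_dvd (p := 2) ⟨h.quot _ hM, hK, fun c hc e => congrArg Subtype.val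
    ((powCoprime h2).injective (a₁ := ⟨c, hc⟩) (a₂ := 1) (Subtype.ext (by simpa using e))), fun c hc => ?_,
    TwM.exE hK hφ hF, hgen⟩ (frob2 hφ hF))⟩
  obtain ⟨d, hd⟩ := (powCoprime h2).surjective ⟨c, hc⟩
  exact ⟨d, d.2, congrArg Subtype.val hd⟩

omit [CharP F 2] in
open TwM in
theorem three_stem [Finite F] {φ : F ≃+* F} {K : Subgroup (chevE6.group F)} (hφ : ∀ t, φ t = t ^ 2) (hF : Nat.card F = 2 ^ 2)
    (hK : ∀ g, (stbE6 φ).σ g = g → g ∈ K) : Mult.Stem K (Multiplicative (ZMod 3)) := by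
  have h3 := frob2 hφ hF
  haveI := Fintype.ofFinite F
  haveI := RGD.sc_finite certE6 RGD.genC_E6 (K := F)
  haveI : Fact (Nat.Prime 3) := ⟨Nat.prime_three⟩
  have e := (RGD.scKerEquiv certE6 RGD.genC_E6 RGD.tau_inj_E6).symm.trans (RGD.cenE6 (K := F))
  have h1 : ((RGD.mSys certE6 F).lift.subgroupComap K).ker = (RGD.mSys certE6 F).lift.ker.subgroupOf _ := by
    ext; exact Subtype.ext_iff
  refine Mult.Stem.of_any (σ := (RGD.mSys certE6 F).lift.subgroupComap K) ⟨MonoidHom.subgroupComap_surjective_of_surjective _ _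
    (RGD.mSys_lift_surjective certE6), fun z hz => ?_, fun z hz => ?_⟩ (mulEquivOfPrimeCardEq (p := 3) ?_ (by simp))
  · rw [h1] at hz
    exact mem_center_iff.2 fun g => Subtype.ext (mem_center_iff.1 (RGD.mSys_lift_central certE6 RGD.genC_E6 hz) g)
  · rw [h1] at hz
    obtain ⟨t, ht⟩ := (RGD.scKerEquiv certE6 RGD.genC_E6 (RGD.tau_inj_E6 (K := F))).surjective ⟨z.1, hz⟩
    obtain ⟨⟨c, hc⟩, rfl⟩ := RGD.cenE6.symm.surjective t
    have h4 : c ^ 3 = 1 := hc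
    have h5 : ∀ r, ∀ c : Fˣ, c ^ 3 = 1 → (stbE6 φ).fu r c = c ^ 2 := fun r c hc => by
      refine mul_right_cancel (b := c) (Units.ext ?_)
      rw [← pow_succ, hc, Units.val_mul, Stb.fu_val]
      change φ c * c = _
      rw [hφ, ← pow_succ, ← Units.val_pow_eq_pow_val, hc]
    have h6 : (c ^ 2) ^ 3 = 1 := by rw [← pow_mul, mul_comm, pow_mul, h4, one_pow]
    have := mul_mem (sc_h_mem RGD.genC_E6 hK eE6 (i := nE 0) (by change ∀ r ∈ _, ∀ s ∈ [certE6.sp (nE 5), (certE6.sp (nE 5)).rev], _; decide +kernel)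
      rfl h3 h4) (sc_h_mem RGD.genC_E6 hK eE6 (i := nE 2) (by change ∀ r ∈ _, ∀ s ∈ [certE6.sp (nE 4), (certE6.sp (nE 4)).rev], _; decide +kernel)
      rfl h3 h6)
    rw [← map_mul, ← map_subtype_commutator, h5 _ _ h4, h5 _ _ h6, show (c ^ 2) ^ 2 = c by
      rw [← pow_mul, pow_succ, h4, one_mul]] at this
    obtain ⟨y, hy, e⟩ := this
    have h7 : (Pi.mulSingle 0 c * Pi.mulSingle 5 (c ^ 2) * (Pi.mulSingle 2 (c ^ 2) * Pi.mulSingle 4 c) : Fin 6 → Fˣ) =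
        fun i => c ^ (![1, 0, 2, 0, 1, 2] : Fin 6 → ℤ) i := by
      funext i; fin_cases i <;> simp [zpow_ofNat]
    have h8 := congrArg (RGD.sc_isChev certE6 RGD.genC_E6 (K := F)).tau h7
    rwa [← show y = z from Subtype.ext (e.trans (h8.trans (by exact congrArg Subtype.val ht)))]
  · rw [h1, Nat.card_congr (subgroupOfEquivOfLe fun z hz => by rw [mem_comap, MonoidHom.mem_ker.1 hz]; exact one_mem _).toEquiv,
      Nat.card_congr e.toEquiv, Cover.card_rootsOfUnity_field, ← Nat.card_eq_fintype_card, hF]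
    rfl

end Cfsg.Agent.Cor
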